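import Cfsg.Agent.Sieve.PrimeLocal
import Cfsg.Agent.Coprime44.InvariantSylow
import Mathlib

/-!
# Groups whose order divides 175560 and Sylow 19-subgroups
-/

set_option autoImplicit false
set_option linter.style.haveILetI false

namespace CfsgLib.Sieve.Order175560

open CfsgLib.SylowToolkit CfsgLib.Sieve.PrimeLocal Subgroup

instance fact_five : Fact (Nat.Prime 5) := ⟨by norm_num⟩
instance fact_seven : Fact (Nat.Prime 7) := ⟨by norm_num⟩
instance fact_eleven : Fact (Nat.Prime 11) := ⟨by norm_num⟩
instance fact_nineteen : Fact (Nat.Prime 19) := ⟨by norm_num⟩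
instance fact_three : Fact (Nat.Prime 3) := ⟨by norm_num⟩

universe u

/-- Two options are compatible with the two-prime relations. -/
def compatible (p q : ℕ) (o o' : ℕ × ℕ × ℕ) : Bool :=
  decide (o.2.2 % q = 0) == decide (o'.2.2 % p = 0) &&
    (!(decide (o.2.2 % q = 0) && decide (o.2.2 / q % q ≠ 0) &&
        decide (∀ i ∈ (o.2.2 / q).divisors, i % q = 1 → i = 1)) ||
      (decide (o.1 % o'.1 = 0) && decide (o'.1 % p = 1)))

theorem compatible_of_hasLocal {G : Type u} [Group G] [Finite G] {p q : ℕ} [hp : Fact p.Prime] [hq : Fact q.Prime]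
    (hpq : p ≠ q) {o o' : ℕ × ℕ × ℕ} (P : HasLocal G p o.1 o.2.2) (Q : HasLocal G q o'.1 o'.2.2) :
    compatible p q o o' = true := by
  simp only [compatible, Bool.and_eq_true, Bool.or_eq_true, beq_iff_eq, decide_eq_decide, decide_eq_true_eq,
    Bool.not_eq_true', Bool.and_eq_false_iff, decide_eq_false_iff_not, ← Nat.dvd_iff_mod_eq_zero]
  refine ⟨⟨fun h => dvd_of_dvd P Q hpq h, fun h => dvd_of_dvd Q P hpq.symm h⟩, ?_⟩
  by_cases h1 : q ∣ o.2.2
  · by_cases h2 : o.2.2 / q % q = 0
    · exact .inl (.inl (.inr (fun h => h h2)))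
    · by_cases h3 : ∀ i ∈ (o.2.2 / q).divisors, i % q = 1 → i = 1
      · exact .inr (card_sylow_dvd_of_normalized P Q hpq h1 (fun h => h2 (Nat.mod_eq_zero_of_dvd h)) h3)
      · exact .inl (.inr h3)
  · exact .inl (.inl (.inl h1))

/-- The five orders not excluded by a single prime. -/
def hardOrders : List ℕ := [420, 840, 1848, 3080, 4620]

theorem options_empty : ∀ m ∈ (9240 : ℕ).divisors, m ≠ 9240 → m ∈ hardOrders ∨
    m = 1 ∨ ∃ p ∈ ([5, 7, 11, 19] : List ℕ), (19 * m) % p = 0 ∧ (19 * m / p) % p ≠ 0 ∧
      options p (19 * m / p) = [] := by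
  decide +kernel

set_option synthInstance.maxSize 4096 in
set_option synthInstance.maxHeartbeats 400000 in
/-- No simple group has order a proper divisor of 175560 properly divisible by 19. -/
theorem not_simple {G : Type u} [Group G] [Finite G] [IsSimpleGroup G] {m : ℕ} (hm : m ∣ 9240) (hm1 : m ≠ 1)
    (hm2 : m ≠ 9240) (h : Nat.card G = 19 * m) : False := by
  have hc : ¬ IsMulCommutative G := not_isMulCommutative_of_not_prime fun hp => by
    rw [h] at hp
    rcases hp.eq_one_or_self_of_dvd 19 (dvd_mul_right 19 m) with e | e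
    · norm_num at e
    · omega
  have hlt : Nat.card G < 90000 := by
    obtain ⟨k, hk⟩ := hm
    rcases k with _ | _ | k
    · norm_num at hk
    · omega
    · rw [h]; nlinarith
  rcases options_empty m (Nat.mem_divisors.mpr ⟨hm, by norm_num⟩) hm2 with hh | hh | ⟨p, hp, hp0, hpp, hop⟩
  swap
  · exact hm1 hh
  swap
  · haveI : Fact p.Prime := ⟨by fin_cases hp <;> norm_num⟩
    obtain ⟨o, ho, -⟩ := exists_option hc hlt p (19 * m / p)
      (by rw [h, Nat.mul_div_cancel' (Nat.dvd_of_mod_eq_zero hp0)]) (fun e => hpp (Nat.mod_eq_zero_of_dvd e))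
    rw [hop] at ho
    exact List.not_mem_nil ho
  simp only [hardOrders, List.mem_cons, List.not_mem_nil, or_false] at hh
  rcases hh with rfl | rfl | rfl | rfl | rfl
  · -- 7980
    obtain ⟨a, ha, A⟩ := exists_option hc hlt 5 1596 (by rw [h]) (by norm_num)
    obtain ⟨b, hb, B⟩ := exists_option hc hlt 7 1140 (by rw [h]) (by norm_num)
    obtain ⟨d, hd, D⟩ := exists_option hc hlt 19 420 (by rw [h]) (by norm_num)
    have key : ∀ a ∈ options 5 1596, ∀ b ∈ options 7 1140, ∀ d ∈ options 19 420, compatible 5 7 a b = true →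
        compatible 5 19 a d = true → compatible 7 19 b d = true →
        a.2.2 % 3 = 0 ∧ 7980 < 1 + a.1 * 4 + b.1 * 6 + d.1 * 18 + a.1 * 8 := by decide +kernel
    obtain ⟨h3, hcount⟩ := key a ha b hb d hd (compatible_of_hasLocal (by norm_num) A B)
      (compatible_of_hasLocal (by norm_num) A D) (compatible_of_hasLocal (by norm_num) B D)
    have h15 := le_card_orderOf_mul (q := 3) A (by norm_num) (Nat.dvd_of_mod_eq_zero h3)
    have hs := one_add_sum_card_orderOf_le (G := G) ({5, 7, 19, 5 * 3} : Finset ℕ) (by decide)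
    rw [Finset.sum_insert (by decide), Finset.sum_insert (by decide), Finset.sum_pair (by decide),
      card_orderOf_eq A (m := 1596) (by rw [h]) (by norm_num), card_orderOf_eq B (m := 1140) (by rw [h]) (by norm_num),
      card_orderOf_eq D (m := 420) (by rw [h]) (by norm_num)] at hs
    omega
  · -- 15960
    obtain ⟨a, ha, A⟩ := exists_option hc hlt 5 3192 (by rw [h]) (by norm_num)
    obtain ⟨b, hb, B⟩ := exists_option hc hlt 7 2280 (by rw [h]) (by norm_num)
    obtain ⟨d, hd, D⟩ := exists_option hc hlt 19 840 (by rw [h]) (by norm_num)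
    have key : ∀ a ∈ options 5 3192, ∀ b ∈ options 7 2280, ∀ d ∈ options 19 840, compatible 5 7 a b = true →
        compatible 5 19 a d = true → compatible 7 19 b d = true → compatible 7 5 b a = true →
        d.1 = 210 ∧ d.2.2 = 2 := by decide +kernel
    obtain ⟨hn, hc2⟩ := key a ha b hb d hd (compatible_of_hasLocal (by norm_num) A B)
      (compatible_of_hasLocal (by norm_num) A D) (compatible_of_hasLocal (by norm_num) B D)
      (compatible_of_hasLocal (by norm_num) B A)
    rw [hn, hc2] at D
    obtain ⟨P⟩ := (inferInstance : Nonempty (Sylow 19 G))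
    haveI : Fact (Nat.Prime 2) := ⟨Nat.prime_two⟩
    obtain ⟨t, ht, htC, hle⟩ := exists_normalized (q := 2) D (by norm_num) (by norm_num) (by norm_num)
      (by decide) P
    set T := centralizer ({t} : Set G)
    have hNT : normalizer ((P : Subgroup G) : Set G) ≤ T := by
      intro g hg
      rw [mem_centralizer_singleton_iff]
      have h1 := (mem_normalizer_iff.mp (hle hg) t).mp (mem_zpowers t)
      obtain ⟨i, hi⟩ := mem_zpowers_iff.mp h1
      rcases Int.even_or_odd i with ⟨j, rfl⟩ | ⟨j, rfl⟩
      · rw [← two_mul, zpow_mul, show t ^ (2 : ℤ) = 1 by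
          rw [show (2 : ℤ) = ((2 : ℕ) : ℤ) from rfl, zpow_natCast, ← ht]; exact pow_orderOf_eq_one t, one_zpow] at hi
        exfalso
        have : t = 1 := conj_eq_one_iff.mp hi.symm
        rw [this, orderOf_one] at ht
        norm_num at ht
      · rw [zpow_add, zpow_mul, show t ^ (2 : ℤ) = 1 by
          rw [show (2 : ℤ) = ((2 : ℕ) : ℤ) from rfl, zpow_natCast, ← ht]; exact pow_orderOf_eq_one t, one_zpow,
          one_mul, zpow_one] at hi
        exact mul_inv_eq_iff_eq_mul.mp hi.symm
    obtain ⟨S⟩ := (inferInstance : Nonempty (Sylow 2 G))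
    have h8 := eight_dvd_centralizer hc S
      (by simpa using card_sylow_subgroup_eq (k := 3) (m := 1995) (by rw [h]; norm_num) (by norm_num) S) ht
    have hPT : (P : Subgroup G) ≤ T := le_normalizer.trans hNT
    have h1 : Nat.card (Sylow 19 T) * T.index = 210 := by
      rw [(P.subtype hPT).card_eq_index_normalizer]
      show (normalizer ((((P : Subgroup G).subgroupOf T) : Subgroup T) : Set T)).index * _ = _
      rw [← subgroupOf_normalizer_eq hPT, ← D.1, P.card_eq_index_normalizer]
      exact relIndex_mul_index hNT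
    have h2 := card_sylow_mod (p := 19) (G := T)
    have h3 := T.card_mul_index
    rw [h] at h3
    have key2 : ∀ i ∈ (210 : ℕ).divisors, 210 / i % 19 = 1 → i = 1 ∨ i = 210 := by decide
    have h4 : 210 / T.index = Nat.card (Sylow 19 T) := by
      rw [← h1, Nat.mul_div_cancel _ (Nat.pos_of_ne_zero T.index_ne_zero_of_finite)]
    rcases key2 _ (Nat.mem_divisors.mpr ⟨⟨_, by rw [mul_comm]; exact h1.symm⟩, by norm_num⟩)
      (by rw [h4]; exact h2) with e | e
    · -- `t` would be central
      have hZ : t ∈ center G := by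
        rw [mem_center_iff]
        intro g
        exact (mem_centralizer_singleton_iff.mp ((index_eq_one.mp e).symm ▸ mem_top g : g ∈ T))
      rcases IsSimpleGroup.eq_bot_or_eq_top_of_normal (center G) inferInstance with hb' | ht'
      · rw [hb', mem_bot] at hZ
        rw [hZ, orderOf_one] at ht
        norm_num at ht
      · exact hc ⟨⟨fun x y => (mem_center_iff.mp (ht' ▸ mem_top y : y ∈ center G) x)⟩⟩
    · rw [e] at h3
      have h8' : 8 ∣ Nat.card T := h8
      omega
  · -- 35112
    obtain ⟨b, hb, B⟩ := exists_option hc hlt 7 5016 (by rw [h]) (by norm_num)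
    obtain ⟨f, hf, F⟩ := exists_option hc hlt 11 3192 (by rw [h]) (by norm_num)
    obtain ⟨d, hd, D⟩ := exists_option hc hlt 19 1848 (by rw [h]) (by norm_num)
    have key : ∀ b ∈ options 7 5016, ∀ f ∈ options 11 3192, ∀ d ∈ options 19 1848, compatible 7 11 b f = true →
        compatible 7 19 b d = true → compatible 11 19 f d = true → False := by decide +kernel
    exact key b hb f hf d hd (compatible_of_hasLocal (by norm_num) B F)
      (compatible_of_hasLocal (by norm_num) B D) (compatible_of_hasLocal (by norm_num) F D)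
  · -- 58520
    obtain ⟨a, ha, A⟩ := exists_option hc hlt 5 11704 (by rw [h]) (by norm_num)
    obtain ⟨b, hb, B⟩ := exists_option hc hlt 7 8360 (by rw [h]) (by norm_num)
    obtain ⟨f, hf, F⟩ := exists_option hc hlt 11 5320 (by rw [h]) (by norm_num)
    obtain ⟨d, hd, D⟩ := exists_option hc hlt 19 3080 (by rw [h]) (by norm_num)
    have key : ∀ a ∈ options 5 11704, ∀ b ∈ options 7 8360, ∀ f ∈ options 11 5320, ∀ d ∈ options 19 3080,
        compatible 5 7 a b = true → compatible 5 11 a f = true → compatible 5 19 a d = true →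
        compatible 7 11 b f = true → compatible 7 19 b d = true → compatible 11 19 f d = true →
        compatible 19 11 d f = true →
        58520 < 1 + a.1 * 4 + b.1 * 6 + f.1 * 10 + d.1 * 18 := by decide +kernel
    have hcount := key a ha b hb f hf d hd (compatible_of_hasLocal (by norm_num) A B)
      (compatible_of_hasLocal (by norm_num) A F) (compatible_of_hasLocal (by norm_num) A D)
      (compatible_of_hasLocal (by norm_num) B F) (compatible_of_hasLocal (by norm_num) B D)
      (compatible_of_hasLocal (by norm_num) F D) (compatible_of_hasLocal (by norm_num) D F)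
    have hs := one_add_sum_card_orderOf_le (G := G) ({5, 7, 11, 19} : Finset ℕ) (by decide)
    rw [Finset.sum_insert (by decide), Finset.sum_insert (by decide), Finset.sum_pair (by decide),
      card_orderOf_eq A (m := 11704) (by rw [h]) (by norm_num), card_orderOf_eq B (m := 8360) (by rw [h]) (by norm_num),
      card_orderOf_eq F (m := 5320) (by rw [h]) (by norm_num),
      card_orderOf_eq D (m := 3080) (by rw [h]) (by norm_num)] at hs
    omega
  · -- 87780
    obtain ⟨a, ha, A⟩ := exists_option hc hlt 5 17556 (by rw [h]) (by norm_num)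
    obtain ⟨b, hb, B⟩ := exists_option hc hlt 7 12540 (by rw [h]) (by norm_num)
    obtain ⟨f, hf, F⟩ := exists_option hc hlt 11 7980 (by rw [h]) (by norm_num)
    obtain ⟨d, hd, D⟩ := exists_option hc hlt 19 4620 (by rw [h]) (by norm_num)
    have key : ∀ a ∈ options 5 17556, ∀ b ∈ options 7 12540, ∀ f ∈ options 11 7980, ∀ d ∈ options 19 4620,
        compatible 5 7 a b = true → compatible 5 11 a f = true → compatible 5 19 a d = true →
        compatible 7 11 b f = true → compatible 7 19 b d = true → compatible 11 19 f d = true →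
        compatible 19 5 d a = true → compatible 7 5 b a = true →
        a.2.2 % 3 = 0 ∧ f.2.2 % 19 = 0 ∧
          87780 < 1 + a.1 * 4 + b.1 * 6 + f.1 * 10 + d.1 * 18 + a.1 * 8 + f.1 * 180 := by decide +kernel
    obtain ⟨h3, h19, hcount⟩ := key a ha b hb f hf d hd (compatible_of_hasLocal (by norm_num) A B)
      (compatible_of_hasLocal (by norm_num) A F) (compatible_of_hasLocal (by norm_num) A D)
      (compatible_of_hasLocal (by norm_num) B F) (compatible_of_hasLocal (by norm_num) B D)
      (compatible_of_hasLocal (by norm_num) F D) (compatible_of_hasLocal (by norm_num) D A)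
      (compatible_of_hasLocal (by norm_num) B A)
    have h15 := le_card_orderOf_mul (q := 3) A (by norm_num) (Nat.dvd_of_mod_eq_zero h3)
    have h209 := le_card_orderOf_mul (q := 19) F (by norm_num) (Nat.dvd_of_mod_eq_zero h19)
    have hs := one_add_sum_card_orderOf_le (G := G) ({5, 7, 11, 19, 5 * 3, 11 * 19} : Finset ℕ) (by decide)
    rw [Finset.sum_insert (by decide), Finset.sum_insert (by decide), Finset.sum_insert (by decide),
      Finset.sum_insert (by decide), Finset.sum_pair (by decide),
      card_orderOf_eq A (m := 17556) (by rw [h]) (by norm_num), card_orderOf_eq B (m := 12540) (by rw [h]) (by norm_num),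
      card_orderOf_eq F (m := 7980) (by rw [h]) (by norm_num),
      card_orderOf_eq D (m := 4620) (by rw [h]) (by norm_num)] at hs
    omega

/-- A 19-subgroup centralizes a subgroup it normalizes whose order divides 9240. -/
theorem le_centralizer_of_dvd {G : Type u} [Group G] [Finite G] (P K : Subgroup G) (hP : Nat.card P = 19)
    (hK : Nat.card K ∣ 9240) (hPK : P ≤ normalizer (K : Set G)) : K ≤ centralizer (P : Set G) := by
  set F := K ⊓ centralizer (P : Set G) with hF
  suffices hFK : F = K from hFK ▸ inf_le_right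
  refine eq_of_le_of_card_ge inf_le_left (Nat.le_of_dvd Nat.card_pos ?_)
  refine (Nat.dvd_iff_prime_pow_dvd_dvd _ _).mpr fun q a hq hqa => ?_
  rcases Nat.eq_zero_or_pos a with rfl | ha
  · simp
  haveI : Fact q.Prime := ⟨hq⟩
  have h19K : ¬ 19 ∣ Nat.card K := fun hh => by
    have := hh.trans hK
    norm_num at this
  obtain ⟨S, hS⟩ := Coprime44.exists_invariant_sylow (p := 19) (IsPGroup.of_card (n := 1) (by rw [hP, pow_one]))
    h19K hPK q
  set R : Subgroup G := (S : Subgroup K).map K.subtype with hR
  have hRcard : Nat.card R = Nat.card (S : Subgroup K) := card_map_of_injective K.subtype_injective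
  have hqR : q ^ a ∣ Nat.card R := hRcard ▸ S.pow_dvd_card_of_pow_dvd_card hqa
  refine hqR.trans (card_dvd_of_le ?_)
  -- orbits of `P` on `R` have size 1
  have hR19 : Nat.card R < 19 := by
    obtain ⟨b, hb⟩ := IsPGroup.iff_card.mp S.isPGroup'
    rw [hRcard, hb]
    have hd : q ^ b ∣ 9240 := (hb ▸ card_subgroup_dvd_card (S : Subgroup K)).trans hK
    have key : ∀ i ∈ (9240 : ℕ).divisors, i.primeFactors.card ≤ 1 → i < 19 := by decide +kernel
    refine key _ (Nat.mem_divisors.mpr ⟨hd, by norm_num⟩) ?_
    rcases Nat.eq_zero_or_pos b with rfl | hb0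
    · simp
    · rw [Nat.primeFactors_prime_pow hb0.ne' hq]; simp
  let act : MulAction P R :=
    { smul := fun k x => ⟨(k : G) * x * (k : G)⁻¹, (mem_normalizer_iff.mp (hS k.2) x).mp x.2⟩
      one_smul := fun x => Subtype.ext (by show ((1 : P) : G) * x * ((1 : P) : G)⁻¹ = x; simp)
      mul_smul := fun u v x => Subtype.ext (by
        show ((u * v : P) : G) * x * ((u * v : P) : G)⁻¹ = (u : G) * ((v : G) * x * (v : G)⁻¹) * (u : G)⁻¹
        simp [mul_assoc]) }
  letI := act
  intro x hx
  refine mem_inf.mpr ⟨map_subtype_le (S : Subgroup K) hx, mem_centralizer_iff.mpr fun k hk => ?_⟩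
  have horb : Nat.card (MulAction.orbit P (⟨x, hx⟩ : R)) = 1 := by
    have hd : Nat.card (MulAction.orbit P (⟨x, hx⟩ : R)) ∣ 19 :=
      hP ▸ ⟨_, ((MulAction.index_stabilizer P (⟨x, hx⟩ : R)) ▸ (Subgroup.index_mul_card _)).symm⟩
    rcases (Nat.dvd_prime (by norm_num : Nat.Prime 19)).mp hd with e | e
    · exact e
    · have := Nat.card_le_card_of_injective (fun z : MulAction.orbit P (⟨x, hx⟩ : R) => (z : R)) Subtype.val_injective
      omega
  obtain ⟨hsub, -⟩ := Nat.card_eq_one_iff_unique.mp horb
  have h1 := congrArg (fun z : MulAction.orbit P (⟨x, hx⟩ : R) => ((z : R) : G))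
    (hsub.elim ⟨(⟨k, hk⟩ : P) • (⟨x, hx⟩ : R), MulAction.mem_orbit _ _⟩ ⟨⟨x, hx⟩, MulAction.mem_orbit_self _⟩)
  exact mul_inv_eq_iff_eq_mul.mp h1

/-- A group of order `19 * m`, `m` dividing 9240, with a proper nontrivial normal subgroup and all smaller
such groups having one Sylow 19-subgroup has a normal Sylow 19-subgroup. -/
theorem step {G : Type u} [Group G] [Finite G] {m : ℕ} (hm : m ∣ 9240) (h : Nat.card G = 19 * m)
    (ih : ∀ i, i ∣ 9240 → i < m → ∀ (L : Type u) [Group L] [Finite L], Nat.card L = 19 * i →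
      ∀ P : Sylow 19 L, (P : Subgroup L).Normal)
    (N : Subgroup G) [hN : N.Normal] (hb : N ≠ ⊥) (ht : N ≠ ⊤) (P : Sylow 19 G) : (P : Subgroup G).Normal := by
  have hm19 : ¬ 19 ∣ m := fun hh => by have := hh.trans hm; norm_num at this
  have hP19 : ∀ R : Sylow 19 G, Nat.card (R : Subgroup G) = 19 := fun R => by
    simpa using card_sylow_subgroup_eq (k := 1) (by simpa using h) hm19 R
  -- a proper normal subgroup of order divisible by 19
  have caseB : ∀ (K : Subgroup G) [K.Normal], K ≠ ⊤ → 19 ∣ Nat.card K → (P : Subgroup G).Normal := by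
    intro K _ hK h19
    obtain ⟨i, hi⟩ := h19
    have hKd : 19 * i ∣ 19 * m := hi ▸ h ▸ card_subgroup_dvd_card K
    have him : i ∣ m := Nat.dvd_of_mul_dvd_mul_left (by norm_num) hKd
    have hlt : i < m := by
      refine lt_of_le_of_ne (Nat.le_of_dvd (Nat.pos_of_ne_zero fun e => hm19 (e ▸ dvd_zero 19)) him) ?_
      rintro rfl
      exact hK ((card_eq_iff_eq_top K).mp (hi.trans h.symm))
    obtain ⟨R⟩ := (inferInstance : Nonempty (Sylow 19 K))
    have hRn := ih i (him.trans hm) hlt K hi R
    have hchar := R.characteristic_of_normal hRn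
    haveI : ((R : Subgroup K).map K.subtype).Normal := inferInstance
    have hR19 : Nat.card ((R : Subgroup K).map K.subtype) = 19 := by
      rw [card_map_of_injective K.subtype_injective]
      simpa using card_sylow_subgroup_eq (k := 1) (by simpa using hi)
        (fun hh => by have := (hh.trans him).trans hm; norm_num at this) R
    obtain ⟨Q, hQ⟩ := (IsPGroup.of_card (n := 1) (show Nat.card ((R : Subgroup K).map K.subtype) = 19 ^ 1 by
      rw [hR19, pow_one])).exists_le_sylow
    have hQe := eq_of_le_of_card_ge hQ (by rw [hR19, hP19])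
    haveI : (Q : Subgroup G).Normal := hQe ▸ inferInstance
    obtain ⟨g, rfl⟩ := MulAction.exists_smul_eq G Q P
    rwa [Sylow.smul_eq_of_normal]
  by_cases h19 : 19 ∣ Nat.card N
  · exact caseB N ht h19
  have hNd : Nat.card N ∣ 9240 := by
    refine ((((Nat.Prime.coprime_iff_not_dvd (by norm_num : Nat.Prime 19)).mpr h19).symm).dvd_of_dvd_mul_left ?_).trans hm
    exact h ▸ card_subgroup_dvd_card N
  have hcent := le_centralizer_of_dvd (P : Subgroup G) N (hP19 P) hNd (fun g _ => by
    rw [normalizer_eq_top]; exact mem_top g)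
  by_cases hC : centralizer (N : Set G) = ⊤
  swap
  · exact caseB _ hC (hP19 P ▸ card_dvd_of_le fun x hx => mem_centralizer_iff.mpr fun y hy =>
      (mem_centralizer_iff.mp (hcent hy) x hx).symm)
  -- `N` is central
  obtain ⟨i, hi⟩ : 19 ∣ Nat.card (G ⧸ N) := by
    have := N.card_eq_card_quotient_mul_card_subgroup
    rw [h] at this
    exact ((Nat.Prime.coprime_iff_not_dvd (by norm_num)).mpr h19).dvd_of_dvd_mul_right ⟨m, this.symm⟩
  have hquot := N.card_eq_card_quotient_mul_card_subgroup
  rw [h, hi, mul_assoc] at hquot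
  have him : i * Nat.card N = m := (Nat.eq_of_mul_eq_mul_left (by norm_num) hquot).symm
  have hlt : i < m := by
    have h1 : 1 < Nat.card N := N.one_lt_card_iff_ne_bot.mpr hb
    have h0 : 0 < i := Nat.pos_of_ne_zero fun e => by
      rw [e] at hi; simp only [mul_zero] at hi; exact Nat.card_pos.ne' hi
    rw [← him]
    exact lt_mul_of_one_lt_right h0 h1
  obtain ⟨R⟩ := (inferInstance : Nonempty (Sylow 19 (G ⧸ N)))
  have hRn := ih i ((Dvd.intro _ him).trans hm) hlt (G ⧸ N) hi R
  set L := (R : Subgroup (G ⧸ N)).comap (QuotientGroup.mk' N) with hL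
  haveI : L.Normal := inferInstance
  have hmem : ∀ g : G, orderOf g ∣ 19 → g ∈ L := by
    intro g hg
    show (QuotientGroup.mk' N g) ∈ (R : Subgroup (G ⧸ N))
    have hpg : IsPGroup 19 (zpowers (QuotientGroup.mk' N g)) := by
      obtain ⟨j, -, hj⟩ := (Nat.dvd_prime_pow (by norm_num : Nat.Prime 19)).mp
        (show orderOf (QuotientGroup.mk' N g) ∣ 19 ^ 1 by rw [pow_one]; exact (orderOf_map_dvd _ g).trans hg)
      exact IsPGroup.of_card (by rw [Nat.card_zpowers, hj])
    obtain ⟨R', hR'⟩ := hpg.exists_le_sylow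
    haveI := hRn
    haveI := R.unique_of_normal hRn
    rw [Subsingleton.elim R R']
    exact hR' (mem_zpowers _)
  constructor
  intro x hx g
  -- `L = N P` with `N` central
  have hxL : g * x * g⁻¹ ∈ L := Normal.conj_mem inferInstance x
    (hmem x (hP19 P ▸ Subgroup.orderOf_dvd_natCard _ hx)) g
  have hLe : L = N ⊔ (P : Subgroup G) := by
    refine (eq_of_le_of_card_ge (sup_le ?_ fun y hy => hmem y (hP19 P ▸ Subgroup.orderOf_dvd_natCard _ hy)) ?_).symm
    · intro y hy
      show (QuotientGroup.mk' N y) ∈ (R : Subgroup (G ⧸ N))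
      rw [show QuotientGroup.mk' N y = 1 from (QuotientGroup.eq_one_iff y).mpr hy]
      exact one_mem _
    · have hidx : L.index = (R : Subgroup (G ⧸ N)).index :=
        index_comap_of_surjective _ (QuotientGroup.mk'_surjective N)
      have h1 := L.card_mul_index
      have h2 := (R : Subgroup (G ⧸ N)).card_mul_index
      have hR19 : Nat.card (R : Subgroup (G ⧸ N)) = 19 := by
        simpa using card_sylow_subgroup_eq (k := 1) (by simpa using hi)
          (fun hh => by have := (hh.trans (Dvd.intro _ him)).trans hm; norm_num at this) R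
      rw [hR19, hi] at h2
      rw [hidx, Nat.eq_of_mul_eq_mul_left (by norm_num) h2, h, ← him] at h1
      have hi0 : 0 < i := Nat.pos_of_ne_zero fun e => by
        rw [e] at hi; simp only [mul_zero] at hi; exact Nat.card_pos.ne' hi
      rw [show Nat.card L = 19 * Nat.card N from Nat.eq_of_mul_eq_mul_right hi0 (by rw [h1]; ring)]
      refine Nat.le_of_dvd Nat.card_pos ?_
      rw [mul_comm]
      exact ((Nat.Prime.coprime_iff_not_dvd (by norm_num : Nat.Prime 19)).mpr h19).symm.mul_dvd_of_dvd_of_dvd
        (card_dvd_of_le le_sup_left) ((hP19 P).symm.dvd.trans (card_dvd_of_le le_sup_right))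
  rw [hLe, mem_sup_of_normal_left] at hxL
  obtain ⟨y, hy, z, hz, hyz⟩ := hxL
  have hcomm : Commute y z :=
    (mem_centralizer_iff.mp (by rw [hC]; exact mem_top z : z ∈ centralizer (N : Set G)) y hy)
  have hy19 : y ^ 19 = 1 := by
    have h1 : (g * x * g⁻¹) ^ 19 = 1 := by
      rw [conj_pow, show x ^ 19 = 1 from orderOf_dvd_iff_pow_eq_one.mp (hP19 P ▸ Subgroup.orderOf_dvd_natCard _ hx)]
      group
    rw [← hyz, hcomm.mul_pow, show z ^ 19 = 1 from
      orderOf_dvd_iff_pow_eq_one.mp (hP19 P ▸ Subgroup.orderOf_dvd_natCard _ hz), mul_one] at h1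
    exact h1
  have hy1 : orderOf y ∣ 1 := by
    rw [← show Nat.gcd 19 (Nat.card N) = 1 from (Nat.Prime.coprime_iff_not_dvd (by norm_num)).mpr h19]
    exact Nat.dvd_gcd (orderOf_dvd_of_pow_eq_one hy19) (Subgroup.orderOf_dvd_natCard _ hy)
  rw [Nat.dvd_one, orderOf_eq_one_iff] at hy1
  rw [hy1, one_mul] at hyz
  exact hyz ▸ hz

theorem sylow_normal {m : ℕ} : m ∣ 9240 → m < 9240 → ∀ (G : Type u) [Group G] [Finite G], Nat.card G = 19 * m →
    ∀ P : Sylow 19 G, (P : Subgroup G).Normal := by
  induction m using Nat.strong_induction_on with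
  | _ m ih =>
    intro hm hlt G _ _ h P
    by_cases hm1 : m = 1
    · subst hm1
      have hP : (P : Subgroup G) = ⊤ := (card_eq_iff_eq_top _).mp (by
        simpa [h] using card_sylow_subgroup_eq (k := 1) (m := 1) (by rw [h]; norm_num) (by norm_num) P)
      rw [hP]; infer_instance
    haveI : Nontrivial G := by
      rw [← Finite.one_lt_card_iff_nontrivial, h]
      have : m ≠ 0 := fun e => by subst e; norm_num at hm
      omega
    by_cases hex : ∃ N : Subgroup G, N.Normal ∧ N ≠ ⊥ ∧ N ≠ ⊤
    · obtain ⟨N, hN, hb, ht⟩ := hex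
      exact step hm h (fun i hi hi' => ih i hi' hi (lt_trans hi' hlt)) N hb ht P
    · exfalso
      haveI : IsSimpleGroup G := ⟨fun H hH => by
        by_contra hcon
        push Not at hcon
        exact hex ⟨H, hH, hcon.1, hcon.2⟩⟩
      exact not_simple hm hm1 (by omega) h

theorem simple_or_normal {G : Type u} [Group G] [Finite G] (h : Nat.card G = 175560) :
    IsSimpleGroup G ∨ ∀ P : Sylow 19 G, (P : Subgroup G).Normal := by
  by_cases hex : ∃ N : Subgroup G, N.Normal ∧ N ≠ ⊥ ∧ N ≠ ⊤
  · obtain ⟨N, hN, hb, ht⟩ := hex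
    exact .inr fun P => step (m := 9240) dvd_rfl (by rw [h]) (fun i hi hi' L _ _ hL => sylow_normal hi hi' L hL) N hb ht P
  · haveI : Nontrivial G := by rw [← Finite.one_lt_card_iff_nontrivial, h]; norm_num
    exact .inl ⟨fun H hH => by
      by_contra hcon
      push Not at hcon
      exact hex ⟨H, hH, hcon.1, hcon.2⟩⟩

end CfsgLib.Sieve.Order175560
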